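import Cfsg.Agent.Lib.U5.Field

/-!
A computable field with nine elements.
-/

set_option autoImplicit false

namespace Cfsg.Agent.SU4

instance factThree : Fact (Nat.Prime 3) := ⟨Nat.prime_three⟩

instance factNegOne : Fact (∀ r : ZMod 3, r ^ 2 ≠ -1 + 0 * r) := ⟨by decide⟩

/-- The field `𝔽₃[i]`. -/
abbrev F9 : Type := QuadraticAlgebra (ZMod 3) (-1) 0

instance : Fintype F9 := Fintype.ofEquiv _ (QuadraticAlgebra.equivProd (-1 : ZMod 3) 0).symm

theorem card_F9 : Nat.card F9 = 9 := by rw [Nat.card_eq_fintype_card]; rfl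

instance : U5.UF F9 := ⟨inferInstance, 3, card_F9, by decide⟩

theorem exists_equiv {K : Type*} [Field K] [StarRing K] [hK : U5.UF K] (h : Nat.card K = 9) :
    ∃ e : K ≃+* F9, ∀ x, e (star x) = star (e x) := by
  obtain ⟨q, h1, h2⟩ := hK.ex
  obtain rfl : q = 3 := by
    rw [h] at h1
    exact (Nat.pow_left_injective two_ne_zero (h1.symm.trans (by norm_num : 9 = 3 ^ 2)))
  let _ := Fintype.ofFinite K
  refine ⟨FiniteField.ringEquivOfCardEq (by rw [← Nat.card_eq_fintype_card, h]; rfl), fun x => ?_⟩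
  rw [h2, map_pow]
  exact ((by decide : ∀ y : F9, star y = y ^ 3) _).symm

example : ∀ x y : F9, x ≠ 0 → x * (y / x) = y := by decide +kernel

end Cfsg.Agent.SU4
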